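import Mathlib
import Cfsg.Agent.Base
import Cfsg.Agent.Lib.Block.Fix
import Cfsg.Agent.Lib.Char.ExtDet
import Cfsg.Agent.Lib.Char.More

/-!
# Characters which are almost regular on an elementary abelian 2-subgroup
-/

set_option autoImplicit false
set_option linter.style.haveILetI false

open Cfsg ComplexConjugate

namespace H34

variable {H : Type*} [Group H] [Finite H]

theorem avg_avg {T S : Subgroup H} (h : T ≤ S) (g : H) (φ : H → ℂ) :
    H84.avg S g (fun x => H84.avg T x φ) = H84.avg S g φ := by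
  haveI := Fintype.ofFinite S
  haveI := Fintype.ofFinite T
  rw [H84.avg_apply]
  simp only [H84.avg_apply T]
  rw [← Finset.mul_sum, Finset.sum_comm]
  have h1 : ∀ t : T, ∑ s : S, φ (g * s * t) = Nat.card S * H84.avg S g φ := fun t => by
    rw [H84.card_mul_avg, ← Equiv.sum_comp (Equiv.mulRight (⟨t, h t.2⟩ : S)) fun s : S => φ (g * s)]
    simp [mul_assoc]
  simp only [h1, Finset.sum_const, Finset.card_univ, nsmul_eq_mul, Fintype.card_eq_nat_card]
  have h2 : (Nat.card S : ℂ) ≠ 0 := Nat.cast_ne_zero.2 Nat.card_pos.ne'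
  have h3 : (Nat.card T : ℂ) ≠ 0 := Nat.cast_ne_zero.2 Nat.card_pos.ne'
  field_simp

theorem card_mul_avg_sub {χ : H → ℂ} {P S : Subgroup H} (hSP : S ≤ P) {c : ℂ}
    (hval : ∀ p ∈ P, p ≠ 1 → χ p = c) {r : H} (hr : r ∈ P) (hrS : r ∉ S) :
    Nat.card S * (H84.avg S 1 χ - H84.avg S r χ) = χ 1 - c := by
  classical
  haveI := Fintype.ofFinite S
  rw [mul_sub, H84.card_mul_avg, H84.card_mul_avg, ← Finset.sum_sub_distrib,
    Finset.sum_eq_single 1 _ (by simp)]
  · simp only [OneMemClass.coe_one, mul_one]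
    rw [hval r hr fun h => hrS (h ▸ S.one_mem)]
  · intro s _ hs
    rw [one_mul, hval _ (hSP s.2) fun h => hs (Subtype.ext h),
      hval _ (P.mul_mem hr (hSP s.2)) fun h => hrS ?_, sub_self]
    rw [eq_inv_of_mul_eq_one_left h]
    exact S.inv_mem s.2

theorem irr_central_sign {ψ : H → ℂ} (hψ : IsIrrCharacter H ψ) {r : H}
    (hr : r ∈ Subgroup.center H) (h2 : r ^ 2 = 1) :
    (∀ x, ψ (r * x) = ψ x) ∨ ∀ x, ψ (r * x) = -ψ x := by
  classical
  haveI : (Subgroup.zpowers r).Normal := ⟨fun u hu g => by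
    rwa [Subgroup.mem_center_iff.1 (Subgroup.zpowers_le.2 hr hu) g, mul_inv_cancel_right]⟩
  haveI := Fintype.ofFinite (Subgroup.zpowers r)
  by_cases h1 : r = 1
  · left; simp [h1]
  have ho : orderOf r = 2 := orderOf_eq_prime h2 h1
  have hs : ∀ x, 2 * H84.avg (Subgroup.zpowers r) x ψ = ψ x + ψ (r * x) := fun x => by
    have h3 := H84.card_mul_avg (Subgroup.zpowers r) x ψ
    rw [Nat.card_zpowers, ho] at h3
    have hne : (1 : Subgroup.zpowers r) ≠ ⟨r, Subgroup.mem_zpowers r⟩ := fun h =>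
      h1 (congrArg Subtype.val h).symm
    have hu : (Finset.univ : Finset (Subgroup.zpowers r)) = {1, ⟨r, Subgroup.mem_zpowers r⟩} := by
      symm
      apply Finset.eq_univ_of_card
      rw [Finset.card_pair hne, Fintype.card_eq_nat_card, Nat.card_zpowers, ho]
    rw [hu, Finset.sum_pair hne] at h3
    simpa [Subgroup.mem_center_iff.1 hr x] using h3
  rcases H84.avg_irr_normal (Subgroup.zpowers r) hψ with h | h
  · right
    intro x
    have := hs x
    rw [h] at this
    linear_combination -this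
  · left
    intro x
    have := hs x
    rw [h] at this
    linear_combination -this

theorem detHom_regChar_eq_one (hc : ∀ a b : H, a * b = b * a) (hodd : Odd (Nat.card H)) (y : H) :
    H31.detHom (H6.regChar H) y = 1 := by
  let ι : H →* H := MonoidHom.mk' (fun a => a⁻¹) fun a b => by rw [mul_inv_rev, hc]
  have h1 := H31.detHom_comp ι (H6.isCharacter_regChar (G := H))
  have h2 : (fun k => H6.regChar H (ι k)) = H6.regChar H := by
    funext k
    by_cases hk : k = 1
    · rw [hk, map_one]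
    · rw [H6.regChar_ne hk]; exact H6.regChar_ne (inv_ne_one.2 hk)
  rw [h2] at h1
  have h3 : H31.detHom (H6.regChar H) y = (H31.detHom (H6.regChar H) y)⁻¹ := by
    rw [← map_inv]; exact DFunLike.congr_fun h1 y
  have h4 : H31.detHom (H6.regChar H) y ^ 2 = 1 := by
    rw [sq]; exact mul_eq_one_iff_eq_inv.2 h3
  have h5 : H31.detHom (H6.regChar H) y ^ Nat.card H = 1 := by
    rw [← map_pow, pow_card_eq_one', map_one]
  exact pow_eq_one_iff_of_coprime (Nat.coprime_two_left.2 hodd) |>.1 ⟨h4, h5⟩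

/-- If `y ∈ H'` of odd order acts freely on `T` and `ψ` has at most one `T`-fixed dimension, then
`ψ y` is that dimension. -/
theorem apply_eq_fd {ψ : H → ℂ} (hψ : IsCharacter H ψ) {T : Subgroup H} (h1 : H84.fd T ψ ≤ 1)
    {y : H} (hy : y ∈ commutator H) (hy1 : y ≠ 1) (hodd : Odd (orderOf y))
    (hyN : y ∈ Subgroup.normalizer (T : Set H))
    (hf : ∀ h ∈ Subgroup.zpowers y, h ≠ 1 → ∀ t ∈ T, t * h = h * t → t = 1) :
    ψ y = H84.fd T ψ := by
  classical
  have hYN : Subgroup.zpowers y ≤ Subgroup.normalizer (T : Set H) := Subgroup.zpowers_le.2 hyN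
  have hcl := H6.char_isClassFunction hψ
  have hav : ∀ h ∈ Subgroup.zpowers y, h ≠ 1 → H84.avg T h ψ = ψ h := fun h hh h1 =>
    H84.avg_of_fpf (hYN hh) (hf h hh h1) hcl
  rcases Nat.le_one_iff_eq_zero_or_eq_one.1 h1 with h0 | h0
  · rw [← hav y (Subgroup.mem_zpowers y) hy1, H84.avg_eq_zero hyN hψ h0, h0, Nat.cast_zero]
  set Y := Subgroup.zpowers y
  haveI := Fintype.ofFinite Y
  have hν := H84.isCharacter_avg hYN hψ
  obtain ⟨B, hB⟩ := H6.exists_hom_of_char_one_eq_one hν (by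
    show H84.avg T (1 : H) ψ = 1
    rw [← H84.fd_cast T hψ, h0, Nat.cast_one])
  have hB' : ∀ h : Y, H84.avg T h ψ = B h := fun h => congrFun hB h
  obtain ⟨n, hn⟩ := H6.char_one_nat hψ
  have hY0 : (Nat.card Y : ℂ) ≠ 0 := Nat.cast_ne_zero.2 Nat.card_pos.ne'
  have hdec : (fun h : Y => ψ h) =
      (fun h : Y => (B h : ℂ)) + (((n : ℂ) - 1) / Nat.card Y) • H6.regChar Y := by
    funext h
    by_cases hh : h = 1
    · subst hh
      simp only [OneMemClass.coe_one, hn, Pi.add_apply, map_one, Units.val_one, Pi.smul_apply,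
        H6.regChar_one, smul_eq_mul]
      field_simp
      ring
    · simp only [Pi.add_apply, Pi.smul_apply, H6.regChar_ne hh, smul_eq_mul, mul_zero, add_zero]
      rw [← hB', hav h h.2 fun e => hh (Subtype.ext e)]
  obtain ⟨j, hj⟩ : ∃ j : ℕ, ((n : ℂ) - 1) / Nat.card Y = j := by
    obtain ⟨a, ha⟩ := H6.char_inner_nat (H6.isCharacter_restrict Y hψ) (H6.isCharacter_hom B)
    rw [hdec, H6.classInner_add_left, H6.classInner_smul_left, H6.classInner_regChar_left,
      H6.irr_inner_self (H6.isIrrCharacter_hom B)] at ha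
    simp only [map_one, Units.val_one, mul_one] at ha
    have hn1 : 1 ≤ n := by
      by_contra h
      have h3 : ψ = 0 := H6.char_eq_zero_of_one hψ (by rw [hn, show n = 0 by omega, Nat.cast_zero])
      have h4 := H84.fd_cast T hψ
      rw [h0, h3, map_zero] at h4
      simp at h4
    have h5 : ((n - 1 : ℕ) : ℂ) + Nat.card Y = a * Nat.card Y := by
      rw [← ha, Nat.cast_sub hn1]; field_simp; push_cast; ring
    have h6 : n - 1 + Nat.card Y = a * Nat.card Y := by exact_mod_cast h5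
    have h7 : 1 ≤ a := by
      by_contra h
      have : 0 < Nat.card Y := Nat.card_pos
      rw [show a = 0 by omega] at h6
      omega
    exact ⟨a - 1, by rw [Nat.cast_sub h7, ← ha]; simp⟩
  rw [hj] at hdec
  have hcomm : ∀ a b : Y, a * b = b * a := fun a b => (Subgroup.zpowers_isMulCommutative y).1.1 a b
  have h8 := H31.detHom_res Y hψ ⟨y, Subgroup.mem_zpowers y⟩
  rw [hdec, H31.detHom_add (H6.isCharacter_hom B)
    (H6.isCharacter_natCast_smul j H6.isCharacter_regChar),
    H31.detHom_nsmul H6.isCharacter_regChar,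
    detHom_regChar_eq_one hcomm (by rwa [Nat.card_zpowers]), H31.detHom_hom, one_pow,
    mul_one] at h8
  have h9 : H31.detHom ψ y = 1 := Abelianization.commutator_subset_ker (H31.detHom ψ) hy
  rw [← hav y (Subgroup.mem_zpowers y) hy1, hB' ⟨y, Subgroup.mem_zpowers y⟩, h8, h9, h0]
  simp

theorem card_mul_sub_eq {χ : H → ℂ} (hχ : IsCharacter H χ) {P R T : Subgroup H}
    (hRc : R ≤ Subgroup.center H) (hR2 : ∀ r ∈ R, r ^ 2 = 1) (hRP : R ≤ P) (hTP : T ≤ P)
    (hP : ∀ p ∈ P, ∃ r ∈ R, ∃ t ∈ T, p = r * t)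
    (hval : ∀ p ∈ P, p ≠ 1 → χ p = χ 1 - Nat.card P) {r : H} (hr : r ∈ R) (hrT : r ∉ T)
    {y : H} (hy : y ∈ commutator H) (hy1 : y ≠ 1) (hodd : Odd (orderOf y))
    (hyN : y ∈ Subgroup.normalizer (T : Set H))
    (hf : ∀ h ∈ Subgroup.zpowers y, h ≠ 1 → ∀ t ∈ T, t * h = h * t → t = 1) :
    Nat.card T * (χ y - χ (r * y)) = Nat.card P := by
  classical
  obtain ⟨m, hm⟩ := H6.char_eq_sum_irr hχ
  have hsg := fun (ψ : IrrCharacter H) {a : H} (ha : a ∈ R) =>
    irr_central_sign ψ.2 (hRc ha) (hR2 a ha)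
  have hlin : ∀ (S : Subgroup H) (g : H),
      H84.avg S g χ = ∑ ψ : IrrCharacter H, m ψ * H84.avg S g ψ := fun S g => by
    conv_lhs => rw [hm]
    simp [map_sum]
  have hneg : ∀ (S : Subgroup H) (ψ : IrrCharacter H) (c : ℂ),
      (∀ x, (ψ : H → ℂ) (r * x) = c * (ψ : H → ℂ) x) →
      H84.avg S r ψ = c * H84.fd S (ψ : H → ℂ) := fun S ψ c h => by
    haveI := Fintype.ofFinite S
    rw [H84.fd_cast S (H6.irr_isCharacter ψ.2), H84.avg_apply, H84.avg_apply]
    simp only [h, one_mul, ← Finset.mul_sum]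
    ring
  have hfd : ∀ ψ : IrrCharacter H, m ψ ≠ 0 → (∀ x, (ψ : H → ℂ) (r * x) = -(ψ : H → ℂ) x) →
      H84.fd T (ψ : H → ℂ) ≤ 1 := by
    intro ψ hmψ hψ
    have hc := H6.irr_isCharacter ψ.2
    set K := R ⊓ H6.charKer (ψ : H → ℂ)
    haveI : K.Normal := ⟨fun u hu g => by
      rwa [Subgroup.mem_center_iff.1 (hRc hu.1) g, mul_inv_cancel_right]⟩
    set S := K ⊔ T with hS
    have hSP : S ≤ P := sup_le (inf_le_left.trans hRP) hTP
    have hS1 : ∀ s ∈ S, H84.avg T s ψ = H84.avg T 1 ψ := fun s hs => by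
      obtain ⟨k, hk, t, ht, rfl⟩ := Subgroup.mem_sup_of_normal_left.1 hs
      rw [H84.avg_mul_mem T k ht]
      haveI := Fintype.ofFinite T
      rw [H84.avg_apply, H84.avg_apply]
      simp only [H6.char_mul_of_eq_one hc ((H6.mem_charKer hc).1 hk.2), one_mul]
    have hS2 : H84.fd S (ψ : H → ℂ) = H84.fd T (ψ : H → ℂ) := by
      have := avg_avg (le_sup_right : T ≤ S) 1 (ψ : H → ℂ)
      rw [H84.avg_of_const S (fun k hk => by rw [one_mul, hS1 k hk]), ← H84.fd_cast _ hc,
        ← H84.fd_cast _ hc] at this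
      exact_mod_cast this.symm
    by_cases hrS : r ∈ S
    · have h1 := hS1 r hrS
      rw [hneg T ψ (-1) (fun x => by rw [hψ]; ring), ← H84.fd_cast _ hc] at h1
      have h2 : (H84.fd T (ψ : H → ℂ) : ℂ) = 0 := by linear_combination (-1 / 2) * h1
      have h3 : H84.fd T (ψ : H → ℂ) = 0 := by exact_mod_cast h2
      omega
    have h1 := card_mul_avg_sub hSP hval (hRP hr) hrS
    obtain ⟨d, hd⟩ : ∃ d : IrrCharacter H → ℕ, (∀ φ : IrrCharacter H,
        H84.avg S 1 φ - H84.avg S r φ = d φ) ∧ d ψ = 2 * H84.fd S (ψ : H → ℂ) := by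
      refine ⟨fun φ => if ∀ x, (φ : H → ℂ) (r * x) = -(φ : H → ℂ) x then
        2 * H84.fd S (φ : H → ℂ) else 0, fun φ => ?_, if_pos hψ⟩
      rw [← H84.fd_cast _ (H6.irr_isCharacter φ.2)]
      beta_reduce
      split_ifs with h
      · rw [hneg S φ (-1) (fun x => by rw [h]; ring)]; push_cast; ring
      · rw [hneg S φ 1 (fun x => by rw [(hsg φ hr).resolve_right h]; ring)]; simp
    rw [hlin, hlin, ← Finset.sum_sub_distrib] at h1
    simp only [← mul_sub, hd.1, sub_sub_cancel] at h1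
    have h2 : Nat.card S * ∑ φ, m φ * d φ = Nat.card P := by exact_mod_cast h1
    have h3 : m ψ * d ψ ≤ ∑ φ, m φ * d φ :=
      Finset.single_le_sum (f := fun φ => m φ * d φ) (fun _ _ => Nat.zero_le _) (Finset.mem_univ ψ)
    have h4 : Nat.card P ≤ 2 * Nat.card S := by
      have h5 : (P : Set H) ⊆ (S : Set H) ∪ (fun s => r * s) '' (S : Set H) := by
        intro p hp
        obtain ⟨a, ha, t, ht, rfl⟩ := hP p hp
        rcases hsg ψ ha with h | h
        · exact .inl (S.mul_mem (Subgroup.mem_sup_left ⟨ha, (H6.mem_charKer hc).2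
            (by simpa using h 1)⟩) (Subgroup.mem_sup_right ht))
        · refine .inr ⟨r * a * t, S.mul_mem (Subgroup.mem_sup_left ⟨R.mul_mem hr ha,
            (H6.mem_charKer hc).2 ?_⟩) (Subgroup.mem_sup_right ht), ?_⟩
          · rw [hψ, ← mul_one a, h, neg_neg]
          · show r * (r * a * t) = a * t
            rw [← mul_assoc, ← mul_assoc, ← sq, hR2 r hr, one_mul]
      have h6 := (Set.ncard_le_ncard h5).trans (Set.ncard_union_le _ _)
      rw [Set.ncard_image_of_injective _ (mul_right_injective r)] at h6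
      simp only [← Nat.card_coe_set_eq] at h6
      have e1 : Nat.card (P : Set H) = Nat.card P := rfl
      have e2 : Nat.card (S : Set H) = Nat.card S := rfl
      omega
    rw [hd.2, hS2] at h3
    have h7 : 0 < Nat.card S := Nat.card_pos
    have h8 : ∑ φ, m φ * d φ ≤ 2 := by nlinarith
    have h9 : 1 ≤ m ψ := Nat.one_le_iff_ne_zero.2 hmψ
    nlinarith
  have h1 := card_mul_avg_sub hTP hval (hRP hr) hrT
  rw [sub_sub_cancel] at h1
  rw [← h1, hlin, hlin]
  congr 1
  conv_lhs => rw [hm]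
  simp only [Finset.sum_apply, Pi.smul_apply, smul_eq_mul, ← Finset.sum_sub_distrib, ← mul_sub]
  refine Finset.sum_congr rfl fun ψ _ => ?_
  by_cases hmψ : m ψ = 0
  · simp [hmψ]
  congr 1
  have hc := H6.irr_isCharacter ψ.2
  rw [← H84.fd_cast _ hc]
  rcases hsg ψ hr with h | h
  · rw [hneg T ψ 1 (fun x => by rw [h]; ring), h]; simp
  · rw [hneg T ψ (-1) (fun x => by rw [h]; ring), h,
      apply_eq_fd hc (hfd ψ hmψ h) hy hy1 hodd hyN hf]
    ring

end H34
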